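import Cfsg.Agent.S1261
import Cfsg.Agent.H1.RankTwo

/-!
# S3938, `Ω⁺₈(2)`: subnormal subgroups (helper884)
-/

set_option autoImplicit false
set_option linter.unusedSectionVars false
set_option linter.style.haveILetI false

namespace Cfsg.Agent.H884.Oc

open Subgroup

variable {G : Type*} [Group G]

theorem card_mul_relIndex' {H K : Subgroup G} (h : H ≤ K) :
    Nat.card H * H.relIndex K = Nat.card K := by
  rw [Subgroup.relIndex, ← Nat.card_congr (Subgroup.subgroupOfEquivOfLe h).toEquiv]
  exact Subgroup.card_mul_index _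

/-- `|K H| |K ∩ H| = |K| |H|` -/
theorem card_sup_mul' {K H : Subgroup G} (h : H ≤ normalizer (K : Set G)) :
    Nat.card (K ⊔ H : Subgroup G) * Nat.card (K ⊓ H : Subgroup G) = Nat.card K * Nat.card H := by
  have hKn : (K.subgroupOf (K ⊔ H)).Normal :=
    normal_subgroupOf_of_le_normalizer (sup_le le_normalizer h)
  have h1 := relIndex_sup_left (H.subgroupOf (K ⊔ H)) (K.subgroupOf (K ⊔ H))
  rw [← Subgroup.subgroupOf_sup le_sup_left le_sup_right, Subgroup.subgroupOf_self,
    Subgroup.relIndex_subgroupOf le_sup_right, relIndex_top_right] at h1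
  have h2 : Nat.card K * K.relIndex H = Nat.card (K ⊔ H : Subgroup G) := by
    rw [← h1]
    exact card_mul_relIndex' le_sup_left
  have h3 : Nat.card (K ⊓ H : Subgroup G) * K.relIndex H = Nat.card H := by
    rw [← Subgroup.inf_relIndex_right K H]
    exact card_mul_relIndex' inf_le_right
  calc _ = Nat.card (K ⊔ H : Subgroup G) * Nat.card (K ⊓ H : Subgroup G) := rfl
    _ = Nat.card K * (Nat.card (K ⊓ H : Subgroup G) * K.relIndex H) := by rw [← h2]; ring
    _ = _ := by rw [h3]

variable [Finite G]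

/-- commuting subgroups with trivial intersection -/
theorem mul_dvd {X Y Z : Subgroup G} (hX : X ≤ Z) (hY : Y ≤ Z) (hc : ∀ x ∈ X, ∀ y ∈ Y, x * y = y * x)
    (hd : ∀ x ∈ X, x ∈ Y → x = 1) : Nat.card X * Nat.card Y ∣ Nat.card Z := by
  let f : X × Y →* Z :=
    { toFun := fun p => ⟨p.1 * p.2, mul_mem (hX p.1.2) (hY p.2.2)⟩
      map_one' := by ext; simp
      map_mul' := by
        rintro ⟨x, y⟩ ⟨x', y'⟩
        apply Subtype.ext
        show (x : G) * x' * (y * y') = (x * y) * (x' * y')
        have h1 := hc x' x'.2 y y.2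
        calc (x : G) * x' * (y * y') = x * (x' * y) * y' := by group
          _ = x * (y * x') * y' := by rw [h1]
          _ = _ := by group }
  have hf : Function.Injective f := by
    rw [injective_iff_map_eq_one]
    rintro ⟨x, y⟩ h
    have h1 : (x : G) * y = 1 := congrArg (fun u : Z => (u : G)) h
    have h2 : (x : G) = (y : G)⁻¹ := eq_inv_of_mul_eq_one_left h1
    have h3 := hd x x.2 (by rw [h2]; exact inv_mem y.2)
    rw [h3, one_mul] at h1
    exact Prod.ext (Subtype.ext h3) (Subtype.ext h1)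
  have := Subgroup.card_dvd_of_injective f hf
  rwa [Nat.card_prod] at this

/-- normal subgroups of the terms of a subnormal series -/
theorem subnormal_up {C : ℕ → Prop} (hC : ∀ m n k, C m → C n → k ∣ m * n → C k) {H : Subgroup G}
    (hH : H.IsSubnormal) :
    (∃ M : Subgroup G, M ≤ H ∧ H ≤ normalizer (M : Set G) ∧ M ≠ ⊥ ∧ C (Nat.card M)) →
      ∃ M : Subgroup G, M.Normal ∧ M ≠ ⊥ ∧ C (Nat.card M) := by
  induction hH with
  | top =>
    rintro ⟨M, -, hM, h1, h2⟩
    exact ⟨M, normalizer_eq_top_iff.1 (top_le_iff.1 hM), h1, h2⟩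
  | step H K hle hK hN ih =>
    rintro ⟨M₁, hM₁, hM₁', hne₁, hC₁⟩
    apply ih
    rw [normal_subgroupOf_iff_le_normalizer hle] at hN
    -- the largest member of the family
    let F : Set (Subgroup G) := {M | M ≤ H ∧ H ≤ normalizer (M : Set G) ∧ C (Nat.card M)}
    have hFfin : F.Finite := Set.toFinite _
    obtain ⟨M₀, hM₀, hmax⟩ := Set.exists_max_image F (fun M => Nat.card M) hFfin ⟨M₁, hM₁, hM₁', hC₁⟩
    have hle₀ : ∀ M ∈ F, M ≤ M₀ := by
      intro M hM
      have h1 : M₀ ⊔ M ∈ F := by
        refine ⟨sup_le hM₀.1 hM.1, ?_, ?_⟩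
        · exact (le_inf hM₀.2.1 hM.2.1).trans (normalizer_inf_normalizer_le_normalizer_sup M₀ M)
        · refine hC _ _ _ hM₀.2.2 hM.2.2 ?_
          rw [← card_sup_mul' (hM.1.trans hM₀.2.1)]
          exact dvd_mul_right _ _
      have h2 := hmax _ h1
      have h3 : M₀ = M₀ ⊔ M := Subgroup.eq_of_le_of_card_ge le_sup_left h2
      rw [h3]
      exact le_sup_right
    have hne₀ : M₀ ≠ ⊥ := by
      intro h0
      have := hle₀ M₁ ⟨hM₁, hM₁', hC₁⟩
      rw [h0] at this
      exact hne₁ (le_bot_iff.1 this)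
    refine ⟨M₀, hM₀.1.trans hle, ?_, hne₀, hM₀.2.2⟩
    intro k hk
    have hkH : k ∈ normalizer (H : Set G) := hN hk
    have hkH' : H.map (MulAut.conj k).toMonoidHom = H := mem_normalizer_iff_map_conj_eq.1 hkH
    have h1 : M₀.map (MulAut.conj k).toMonoidHom ∈ F := by
      refine ⟨?_, ?_, ?_⟩
      · rw [← hkH']
        exact Subgroup.map_mono hM₀.1
      · have h2 := Subgroup.map_mono (f := (MulAut.conj k).toMonoidHom) hM₀.2.1
        rw [hkH'] at h2
        exact h2.trans (Subgroup.le_normalizer_map (MulAut.conj k).toMonoidHom)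
      · rw [Subgroup.card_map_of_injective (MulAut.conj k).injective]
        exact hM₀.2.2
    rw [mem_normalizer_iff_map_conj_eq]
    exact Subgroup.eq_of_le_of_card_ge (hle₀ _ h1) (by rw [Subgroup.card_map_of_injective (MulAut.conj k).injective])

/-- a minimal subnormal subgroup is simple -/
theorem exists_simple_subnormal (h : Nontrivial G) : ∃ S : Subgroup G, S.IsSubnormal ∧ IsSimpleGroup S := by
  let F : Set (Subgroup G) := {S | S.IsSubnormal ∧ S ≠ ⊥}
  have hFfin : F.Finite := Set.toFinite _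
  obtain ⟨S, hS, hmin⟩ := Set.exists_min_image F (fun M => Nat.card M) hFfin
    ⟨⊤, IsSubnormal.top, by rw [ne_comm]; exact bot_ne_top⟩
  refine ⟨S, hS.1, ?_⟩
  haveI : Nontrivial S := (Subgroup.nontrivial_iff_ne_bot S).2 hS.2
  refine ⟨fun N hN => ?_⟩
  by_cases hNb : N = ⊥
  · exact Or.inl hNb
  right
  have h1 : N.map S.subtype ∈ F := by
    refine ⟨?_, ?_⟩
    · refine IsSubnormal.step _ S (Subgroup.map_subtype_le N) hS.1 ?_
      have : (N.map S.subtype).subgroupOf S = N := Subgroup.comap_map_eq_self_of_injective S.subtype_injective N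
      rw [this]
      exact hN
    · rw [Ne, Subgroup.map_eq_bot_iff_of_injective _ S.subtype_injective]
      exact hNb
  have h2 := hmin _ h1
  rw [Subgroup.card_map_of_injective S.subtype_injective] at h2
  exact Subgroup.eq_top_of_le_card N h2

end Cfsg.Agent.H884.Oc
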